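import Mathlib
import Cfsg.Agent.Lib.TW.LayerStep

/-!
# The Thompson--Wielandt theorem: the index bound
-/

set_option autoImplicit false

open Subgroup Cfsg Cfsg.Agent.Lib.Core Cfsg.Agent.Lib.FStar
open scoped Nat

namespace Cfsg.Agent.Lib.TW

theorem index_inf_dvd' {Y : Type*} [Group Y] (H K : Subgroup Y) [K.Normal] :
    (H ⊓ K).index ∣ H.index * K.index := by
  rw [← relIndex_mul_index (inf_le_left : H ⊓ K ≤ H), inf_relIndex_left, mul_comm]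
  exact mul_dvd_mul_left _ (relIndex_dvd_index_of_normal K H)

theorem index_iInf_dvd' {Y ι : Type*} [Group Y] [Finite ι] (H : ι → Subgroup Y)
    (hn : ∀ i, (H i).Normal) (N : ℕ) (hN : ∀ i, (H i).index ∣ N) :
    (⨅ i, H i).index ∣ N ^ Nat.card ι := by
  classical
  haveI := Fintype.ofFinite ι
  have key : ∀ s : Finset ι, (s.inf H).index ∣ N ^ s.card := by
    intro s
    induction s using Finset.induction_on with
    | empty => simp [index_top]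
    | insert a s ha ih =>
      rw [Finset.inf_insert, Finset.card_insert_of_notMem ha, pow_succ', inf_comm]
      haveI := hn a
      refine (index_inf_dvd' _ _).trans ?_
      rw [mul_comm]
      exact mul_dvd_mul (hN a) ih
  have := key Finset.univ
  rwa [Finset.inf_univ_eq_iInf, Finset.card_univ, ← Nat.card_eq_fintype_card] at this

theorem index_core_dvd {X : Type*} [Group X] [Finite X] (H : Subgroup X) :
    H.normalCore.index ∣ (H.index)! := by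
  rw [normalCore_eq_ker, index_ker]
  have h := Subgroup.card_subgroup_dvd_card (MulAction.toPermHom X (X ⧸ H)).range
  rwa [Nat.card_perm] at h

theorem card_stab_perm {Y : Type*} [Finite Y] (y : Y) :
    Nat.card (MulAction.stabilizer (Equiv.Perm Y) y) = (Nat.card Y - 1)! := by
  have h1 := Subgroup.card_mul_index (MulAction.stabilizer (Equiv.Perm Y) y)
  rw [MulAction.index_stabilizer_of_transitive, Nat.card_perm] at h1
  have hY : Nat.card Y ≠ 0 := by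
    haveI : Nonempty Y := ⟨y⟩
    exact Nat.card_pos.ne'
  have h2 := Nat.mul_factorial_pred hY
  rw [← h2, mul_comm] at h1
  exact Nat.eq_of_mul_eq_mul_left (Nat.pos_of_ne_zero hY) h1

theorem relIndex_core_dvd {X : Type*} [Group X] [Finite X] (H : Subgroup X) :
    H.normalCore.relIndex H ∣ (H.index - 1)! := by
  set phi := MulAction.toPermHom X (X ⧸ H) with hphi
  set psi := phi.comp H.subtype with hpsi
  have h1 : H.normalCore.relIndex H = psi.ker.index := by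
    rw [relIndex, normalCore_eq_ker]
    congr 1
  rw [h1, index_ker]
  have h2 : psi.range ≤ MulAction.stabilizer (Equiv.Perm (X ⧸ H)) ((1 : X) : X ⧸ H) := by
    rintro _ ⟨h, rfl⟩
    rw [MulAction.mem_stabilizer_iff]
    change ((h : X) • ((1 : X) : X ⧸ H)) = _
    rw [MulAction.Quotient.smul_coe]
    simp only [smul_eq_mul, mul_one]
    rw [QuotientGroup.eq]
    simp
  have h3 := Subgroup.card_dvd_of_le h2
  rwa [card_stab_perm] at h3

variable {G : Type*} [Group G] [Finite G]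

theorem rc_subgroupOf (M X : Subgroup G) : (rc M X).subgroupOf M = (X.subgroupOf M).normalCore := by
  rw [rc, subgroupOf, comap_map_eq_self_of_injective M.subtype_injective]

theorem a1_relIndex (M₁ M₂ : Subgroup G) : (a1 M₁ M₂).relIndex M₁ ∣ ((M₁ ⊓ M₂).relIndex M₁)! := by
  rw [relIndex, a1, rc_subgroupOf]
  exact index_core_dvd _

theorem b1_relIndex (M₁ M₂ : Subgroup G) :
    (a1 M₂ M₁).relIndex (M₁ ⊓ M₂) ∣ ((M₁ ⊓ M₂).relIndex M₂ - 1)! := by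
  have h := relIndex_core_dvd ((M₁ ⊓ M₂).subgroupOf M₂)
  rw [← rc_subgroupOf, relIndex_subgroupOf (inf_le_right : M₁ ⊓ M₂ ≤ M₂)] at h
  rw [a1, inf_comm M₂ M₁]
  exact h

theorem q_relIndex (M₁ M₂ : Subgroup G) :
    (q12 M₁ M₂).relIndex (a1 M₁ M₂) ∣ (a1 M₂ M₁).relIndex (M₁ ⊓ M₂) := by
  have hn : ((a1 M₂ M₁).subgroupOf (M₁ ⊓ M₂)).Normal := by
    apply subgroupOf_normal_of_NI
    exact (a1_NI M₂ M₁).mono (le_inf (a1_le_right M₂ M₁) (a1_le_left M₂ M₁)) inf_le_right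
  have h := relIndex_dvd_index_of_normal ((a1 M₂ M₁).subgroupOf (M₁ ⊓ M₂))
    ((a1 M₁ M₂).subgroupOf (M₁ ⊓ M₂))
  rw [relIndex_subgroupOf (a1_le_inf M₁ M₂)] at h
  rw [q12, inf_relIndex_left]
  exact h

theorem q12_NI_D (M₁ M₂ : Subgroup G) {δ u : G} (hδ : δ ∈ M₁ ⊓ M₂) (hu : u ∈ q12 M₁ M₂) :
    δ * u * δ⁻¹ ∈ q12 M₁ M₂ :=
  mem_inf.mpr ⟨(a1_NI M₁ M₂).2 δ (mem_inf.mp hδ).1 u (mem_inf.mp hu).1,
    (a1_NI M₂ M₁).2 δ (mem_inf.mp hδ).2 u (mem_inf.mp hu).2⟩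

/-- A conjugate of the intersection of the two first cores, as a subgroup of the first core. -/
def QY (M₁ M₂ : Subgroup G) (m : G) : Subgroup (a1 M₁ M₂) :=
  ((q12 M₁ M₂).map (MulAut.conj m).toMonoidHom).subgroupOf (a1 M₁ M₂)

theorem mem_QY {M₁ M₂ : Subgroup G} {m : G} {y : a1 M₁ M₂} :
    y ∈ QY M₁ M₂ m ↔ m⁻¹ * y * m ∈ q12 M₁ M₂ := by
  rw [QY, mem_subgroupOf, mem_map_equiv]
  simp [MulAut.conj_symm_apply]

theorem QY_normal (M₁ M₂ : Subgroup G) {m : G} (hm : m ∈ M₁) : (QY M₁ M₂ m).Normal := by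
  constructor
  intro y hy a
  rw [mem_QY] at hy ⊢
  have h1 : m⁻¹ * (a : G) * m⁻¹⁻¹ ∈ a1 M₁ M₂ := (a1_NI M₁ M₂).2 _ (inv_mem hm) _ a.2
  have h2 := q12_NI_D M₁ M₂ (a1_le_inf M₁ M₂ h1) hy
  have h3 : m⁻¹ * ((a * y * a⁻¹ : a1 M₁ M₂) : G) * m =
      (m⁻¹ * (a : G) * m⁻¹⁻¹) * (m⁻¹ * (y : G) * m) * (m⁻¹ * (a : G) * m⁻¹⁻¹)⁻¹ := by
    push_cast
    group
  rw [h3]
  exact h2

theorem QY_index (M₁ M₂ : Subgroup G) {m : G} (hm : m ∈ M₁) :
    (QY M₁ M₂ m).index = (q12 M₁ M₂).relIndex (a1 M₁ M₂) := by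
  have h1 : ∀ a ∈ a1 M₁ M₂, m⁻¹ * a * m⁻¹⁻¹ ∈ a1 M₁ M₂ :=
    fun a ha => (a1_NI M₁ M₂).2 _ (inv_mem hm) _ ha
  have h2 : QY M₁ M₂ m = ((q12 M₁ M₂).subgroupOf (a1 M₁ M₂)).comap (conjEquiv h1).toMonoidHom := by
    ext y
    rw [mem_QY, mem_comap, mem_subgroupOf]
    simp [conjEquiv_coe]
  rw [h2, index_comap_of_surjective _ (conjEquiv h1).surjective]
  rfl

theorem a2_relIndex (M₁ M₂ : Subgroup G) :
    (a2 M₁ M₂).relIndex (a1 M₁ M₂) ∣
      ((q12 M₁ M₂).relIndex (a1 M₁ M₂)) ^ ((M₁ ⊓ M₂).relIndex M₁) := by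
  have key : (a2 M₁ M₂).subgroupOf (a1 M₁ M₂) =
      ⨅ c : M₁ ⧸ ((M₁ ⊓ M₂).subgroupOf M₁), QY M₁ M₂ ((c.out : M₁) : G) := by
    ext y
    rw [mem_subgroupOf, mem_iInf, a2, mem_rc]
    constructor
    · rintro ⟨_, h⟩ c
      rw [mem_QY]
      have := h _ (inv_mem (c.out : M₁).2)
      simpa using this
    · intro h
      refine ⟨a1_le_left M₁ M₂ y.2, ?_⟩
      intro m hm
      have h1 := h (QuotientGroup.mk (⟨m⁻¹, inv_mem hm⟩ : M₁))
      rw [mem_QY] at h1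
      obtain ⟨δ, hδ⟩ := QuotientGroup.mk_out_eq_mul ((M₁ ⊓ M₂).subgroupOf M₁) (⟨m⁻¹, inv_mem hm⟩ : M₁)
      rw [hδ] at h1
      have hδ2 : (δ : M₁).1 ∈ M₁ ⊓ M₂ := δ.2
      have h2 := q12_NI_D M₁ M₂ hδ2 h1
      have h3 : ((δ : M₁) : G) * ((((⟨m⁻¹, inv_mem hm⟩ : M₁) * (δ : M₁) : M₁) : G)⁻¹ * (y : G) *
          (((⟨m⁻¹, inv_mem hm⟩ : M₁) * (δ : M₁) : M₁) : G)) * ((δ : M₁) : G)⁻¹ = m * y * m⁻¹ := by
        push_cast
        group
      rwa [h3] at h2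
  rw [relIndex, key]
  have h9 := index_iInf_dvd' (fun c : M₁ ⧸ ((M₁ ⊓ M₂).subgroupOf M₁) => QY M₁ M₂ ((c.out : M₁) : G))
    (fun c => QY_normal M₁ M₂ (c.out : M₁).2) ((q12 M₁ M₂).relIndex (a1 M₁ M₂))
    (fun c => (QY_index M₁ M₂ (c.out : M₁).2).dvd)
  exact h9

/-- The index bound for the second relative core. -/
theorem index_bound (M₁ M₂ : Subgroup G) {d : ℕ} (h1 : (M₁ ⊓ M₂).relIndex M₁ = d)
    (h2 : (M₁ ⊓ M₂).relIndex M₂ = d) :
    (a2 M₁ M₂).relIndex M₁ ∣ d ! * ((d - 1)!) ^ d := by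
  rw [← relIndex_mul_relIndex _ _ _ (a2_le_a1 M₁ M₂) (a1_le_left M₁ M₂), mul_comm]
  refine mul_dvd_mul ?_ ?_
  · have := a1_relIndex M₁ M₂
    rwa [h1] at this
  · have h3 := a2_relIndex M₁ M₂
    rw [h1] at h3
    refine h3.trans (pow_dvd_pow_of_dvd ?_ d)
    have h4 := (q_relIndex M₁ M₂).trans (b1_relIndex M₁ M₂)
    rwa [h2] at h4

end Cfsg.Agent.Lib.TW
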